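import Cfsg.Agent.H487.SchurMult
import Cfsg.Agent.OddHalf.CoverAlt

/-!
# Elements of order 4 in the kernel of a perfect central 2-extension (helper917)

`NoFour T` : every perfect finite central extension of `T` by a 2-group has kernel of exponent 2.
-/

set_option autoImplicit false

namespace Cfsg.Agent.H917

universe u v w

/-- every finite perfect central extension of `T` by a 2-group has a kernel of exponent at most 2 -/
def NoFour (T : Type v) [Group T] : Prop :=
  ∀ (C : Type u) [Group C] [Finite C] (f : C →* T), Function.Surjective f → f.ker ≤ Subgroup.center C →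
    commutator C = ⊤ → IsPGroup 2 f.ker → ∀ z ∈ f.ker, z ^ 2 = 1

theorem NoFour.congr {T : Type v} [Group T] {T' : Type w} [Group T'] (h : NoFour.{u} T) (e : T' ≃* T) :
    NoFour.{u} T' := by
  intro C _ _ f hf hc hC h2 z hz
  have hk : (e.toMonoidHom.comp f).ker = f.ker := by
    ext x
    simp [MonoidHom.mem_ker]
  refine h C (e.toMonoidHom.comp f) (e.surjective.comp hf) (by rw [hk]; exact hc) hC (by rw [hk]; exact h2) z ?_
  rw [hk]; exact hz

theorem NoFour.of_nonempty {T : Type v} [Group T] {T' : Type w} [Group T'] (h : NoFour.{u} T)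
    (e : Nonempty (T' ≃* T)) : NoFour.{u} T' := h.congr e.some

theorem noFour_of_mult {T : Type v} [Group T] {A : Type w} [CommGroup A] (h : Cfsg.HasSchurMultiplier T A) {m : ℕ}
    (hm : Odd m) (hA : ∀ a : A, a ^ (2 * m) = 1) : NoFour.{u} T := by
  intro C _ _ f hf hc hC h2 z hz
  obtain ⟨π, hπ⟩ := H487.HasSchurMultiplier.exists_surj_ker h (D := C) (τ := f) ⟨hf, hc, by rw [hC]; exact le_top⟩
  obtain ⟨a, ha⟩ := hπ ⟨z, hz⟩
  have h1 : (⟨z, hz⟩ : f.ker) ^ (2 * m) = 1 := by rw [← ha, ← map_pow, hA, map_one]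
  obtain ⟨k, hk⟩ := h2 ⟨z, hz⟩
  have h3 : orderOf (⟨z, hz⟩ : f.ker) ∣ 2 ^ k := orderOf_dvd_of_pow_eq_one hk
  have h4 : orderOf (⟨z, hz⟩ : f.ker) ∣ 2 * m := orderOf_dvd_of_pow_eq_one h1
  have h5 : Nat.Coprime (orderOf (⟨z, hz⟩ : f.ker)) m :=
    Nat.Coprime.coprime_dvd_left h3 (Nat.Coprime.pow_left k (Nat.coprime_two_left.2 hm))
  have h6 : orderOf (⟨z, hz⟩ : f.ker) ∣ 2 := h5.dvd_of_dvd_mul_right h4
  have h7 := orderOf_dvd_iff_pow_eq_one.1 h6
  exact congrArg Subtype.val h7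

theorem noFour_of_cyc {T : Type v} [Group T] {n : ℕ} (h : Cfsg.HasCyclicSchurMultiplier T n) {m : ℕ}
    (hm : Odd m) (hn : n ∣ 2 * m) : NoFour.{u} T := by
  refine noFour_of_mult h hm fun a => ?_
  obtain ⟨k, hk⟩ := hn
  rw [hk, pow_mul]
  have : a ^ n = 1 := by
    apply Multiplicative.toAdd.injective
    rw [toAdd_pow, toAdd_one, nsmul_eq_mul, ZMod.natCast_self, zero_mul]
  rw [this, one_pow]

theorem noFour_one {T : Type v} [Group T] (h : Cfsg.HasCyclicSchurMultiplier T 1) : NoFour.{u} T :=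
  noFour_of_cyc h (m := 1) odd_one (by decide)
theorem noFour_two {T : Type v} [Group T] (h : Cfsg.HasCyclicSchurMultiplier T 2) : NoFour.{u} T :=
  noFour_of_cyc h (m := 1) odd_one (by decide)
theorem noFour_three {T : Type v} [Group T] (h : Cfsg.HasCyclicSchurMultiplier T 3) : NoFour.{u} T :=
  noFour_of_cyc h (m := 3) (by decide) (by decide)
theorem noFour_six {T : Type v} [Group T] (h : Cfsg.HasCyclicSchurMultiplier T 6) : NoFour.{u} T :=
  noFour_of_cyc h (m := 3) (by decide) (by decide)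

theorem noFour_gcd_two {T : Type v} [Group T] {k : ℕ} (h : Cfsg.HasCyclicSchurMultiplier T (Nat.gcd 2 k)) :
    NoFour.{u} T :=
  noFour_of_cyc h (m := 1) odd_one (by simpa using Nat.gcd_dvd_left 2 k)

theorem noFour_gcd_three {T : Type v} [Group T] {k : ℕ} (h : Cfsg.HasCyclicSchurMultiplier T (Nat.gcd 3 k)) :
    NoFour.{u} T :=
  noFour_of_cyc h (m := 3) (by decide) ((Nat.gcd_dvd_left 3 k).trans (by decide))

/-- multiplier of order `gcd k n` with `k` odd -/
theorem noFour_gcd_odd {T : Type v} [Group T] {k n : ℕ} (hk : Odd k)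
    (h : Cfsg.HasCyclicSchurMultiplier T (Nat.gcd n k)) : NoFour.{u} T :=
  noFour_of_cyc h (m := k) hk ((Nat.gcd_dvd_right n k).trans (dvd_mul_left _ _))

theorem noFour_alt {n : ℕ} (hn : 5 ≤ n) : NoFour.{u} (alternatingGroup (Fin n)) := by
  intro C _ _ f hf hc hC h2 z hz
  have h : OddHalf.CoverAlt.Ext f := by
    refine ⟨hf, ?_, ?_, hC⟩
    · intro x hx y
      exact (Subgroup.mem_center_iff.1 (hc (MonoidHom.mem_ker.2 hx)) y).symm
    · intro x hx
      obtain ⟨k, hk⟩ := h2 ⟨x, MonoidHom.mem_ker.2 hx⟩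
      exact ⟨k, congrArg Subtype.val hk⟩
  obtain ⟨w, -, hw, h3⟩ := h.exists_z hn
  rcases h3 z (MonoidHom.mem_ker.1 hz) with rfl | rfl
  · exact one_pow 2
  · rw [pow_two]; exact hw

end Cfsg.Agent.H917
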