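import Cfsg.Agent.H917.FourBase
import Cfsg.Agent.S0243
import Cfsg.Agent.S0280
import Cfsg.Agent.S0292
import Cfsg.Agent.S2086
import Cfsg.Agent.S2089
import Cfsg.Agent.S2091
import Cfsg.Agent.S2092
import Cfsg.Agent.S2093
import Cfsg.Agent.S2094
import Cfsg.Agent.S2096
import Cfsg.Agent.S2097
import Cfsg.Agent.S2098
import Cfsg.Agent.S2099

/-!
# `NoFour` for the classical groups (helper917)

The classical groups with a perfect central extension by a 2-group whose kernel has an element of order 4, of order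
divisible by `2 ^ 15`: only `PSL_n(q)`, `PSU_n(q)`, `PΩ^±_{2l}(q)`, `q` odd, `l ≥ 5` odd.
-/

set_option autoImplicit false

namespace Cfsg.Agent.H917

open Cfsg

universe u v

variable {T : Type v} [Group T]

theorem noFour_psl (h : IsPSL T) (h15 : 2 ^ 15 ∣ Nat.card T) : NoFour.{u} T ∨
    ∃ (F : Type) (_ : Field F) (_ : Fintype F) (n : ℕ), 2 ≤ n ∧ Odd (Fintype.card F) ∧
      Nonempty (T ≃* Matrix.ProjectiveSpecialLinearGroup (Fin n) F) := by
  obtain ⟨F, _, _, n, hn, h2, ⟨e⟩⟩ := h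
  rcases Nat.even_or_odd (Fintype.card F) with hF | hF
  swap
  · exact Or.inr ⟨F, _, _, n, hn, hF, ⟨e⟩⟩
  left
  have hc := Nat.card_congr e.toEquiv
  rw [hc] at h15
  have hS := S0243.result (F := F) rfl n hn
  have h1 : 1 < Fintype.card F := Fintype.one_lt_card
  by_cases hexc : (n, Fintype.card F) ∉ ({(2, 4), (2, 9), (3, 2), (3, 4), (4, 2)} : Set (ℕ × ℕ))
  · refine (noFour_gcd_odd ?_ (S2086.result rfl n hn h2 hexc)).congr e
    obtain ⟨k, hk⟩ := hF
    exact ⟨k - 1, by omega⟩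
  · exfalso
    rw [not_not] at hexc
    simp only [Set.mem_insert_iff, Prod.mk.injEq, Set.mem_singleton_iff] at hexc
    have h16 : 2 ^ 15 ∣ ∏ i : Fin n, ((Fintype.card F) ^ n - (Fintype.card F) ^ (i : ℕ)) := by
      rw [← hS]
      exact (h15.mul_left _).mul_left _
    rcases hexc with ⟨rfl, hq⟩ | ⟨rfl, hq⟩ | ⟨rfl, hq⟩ | ⟨rfl, hq⟩ | ⟨rfl, hq⟩ <;> rw [hq] at h16 <;>
      revert h16 <;> decide

theorem noFour_psp (h : IsPSp T) : NoFour.{u} T := by
  obtain ⟨F, _, _, m, hm, h2, ⟨e⟩⟩ := h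
  by_cases hexc : m = 3 ∧ Fintype.card F = 2
  · obtain ⟨rfl, hq⟩ := hexc
    exact (noFour_two (S2093.result hq)).congr e
  · exact (noFour_gcd_two (S2092.result rfl m hm h2 hexc)).congr e

theorem noFour_psu (h : IsPSU T) (h15 : 2 ^ 15 ∣ Nat.card T) : NoFour.{u} T ∨
    ∃ (F : Type) (_ : Field F) (_ : Fintype F) (n q : ℕ), Fintype.card F = q ^ 2 ∧ 3 ≤ n ∧ Odd q ∧
      Nonempty (T ≃* PSU n F q) := by
  obtain ⟨F, _, _, n, q, hq, hn, h32, ⟨e⟩⟩ := h
  rcases Nat.even_or_odd q with hF | hF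
  swap
  · exact Or.inr ⟨F, _, _, n, q, hq, hn, hF, ⟨e⟩⟩
  left
  have hc := Nat.card_congr e.toEquiv
  rw [hc] at h15
  have hS := S0280.result hq n (by omega)
  by_cases h62 : n = 6 ∧ q = 2
  · obtain ⟨rfl, rfl⟩ := h62
    refine (noFour_of_mult (S2091.result (by rw [hq]; norm_num)) (m := 3) (by decide) ?_).congr e
    have : ∀ a : ZMod 3 × ZMod 2 × ZMod 2, (2 * 3) • a = 0 := by decide
    exact this
  by_cases hexc : (n, q) ∉ ({(4, 2), (4, 3), (6, 2)} : Set (ℕ × ℕ))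
  · exact (noFour_gcd_odd (Even.add_one hF) (S2089.result n q hq hn h32 hexc)).congr e
  · exfalso
    rw [not_not] at hexc
    simp only [Set.mem_insert_iff, Prod.mk.injEq, Set.mem_singleton_iff] at hexc
    have h16 := (h15.mul_left (q + 1)).mul_left (Nat.gcd n (q + 1))
    rw [hS] at h16
    rcases hexc with ⟨rfl, rfl⟩ | ⟨rfl, rfl⟩ | ⟨rfl, rfl⟩
    · revert h16; decide
    · revert h16; decide
    · exact h62 ⟨rfl, rfl⟩

theorem noFour_oodd (h : IsPOmegaOdd T) (h15 : 2 ^ 15 ∣ Nat.card T) : NoFour.{u} T := by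
  obtain ⟨F, _, _, m, hm, hF, ⟨e⟩⟩ := h
  by_cases hexc : m = 3 ∧ Fintype.card F = 3
  · exfalso
    obtain ⟨rfl, hq⟩ := hexc
    have hc := Nat.card_congr e.toEquiv
    rw [hc] at h15
    have h16 := h15.mul_left 2
    rw [S0292.result hq (by decide) 3 (by norm_num)] at h16
    revert h16; decide
  · exact (noFour_two (S2094.result rfl hF m hm hexc)).congr e

theorem odd_pow_sub_one {q l : ℕ} (hq : Even q) (h0 : 1 ≤ q ^ l) (hl : 1 ≤ l) : Odd (q ^ l - 1) := by
  have h1 : Even (q ^ l) := hq.pow_of_ne_zero (by omega)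
  obtain ⟨k, hk⟩ := h1
  exact ⟨k - 1, by omega⟩

theorem noFour_oplus (h : IsPOmegaPlus T) : NoFour.{u} T ∨
    ∃ (F : Type) (_ : Field F) (_ : Fintype F) (l : ℕ), 5 ≤ l ∧ Odd l ∧ Odd (Fintype.card F) ∧
      Nonempty (T ≃* POmega F (quadFormPlus l F)) := by
  obtain ⟨F, _, _, l, hl, ⟨e⟩⟩ := h
  have h1 : 1 < Fintype.card F := Fintype.one_lt_card
  rcases Nat.even_or_odd l with he | ho
  · left
    by_cases hexc : l = 4 ∧ Fintype.card F = 2
    · obtain ⟨rfl, hq⟩ := hexc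
      refine (noFour_of_mult (S2098.result hq) (m := 1) (by decide) ?_).congr e
      have : ∀ a : ZMod 2 × ZMod 2, (2 * 1) • a = 0 := by decide
      exact this
    · have hS := S2097.result rfl l hl he hexc (F := F)
      refine (noFour_of_mult hS (m := 1) (by decide) ?_).congr e
      have hg : ∀ g : ℕ, g ∣ 2 → ∀ a : ZMod g × ZMod g, (2 * 1) • a = 0 := by
        intro g hg a
        obtain ⟨k, hk⟩ := hg
        have : ∀ b : ZMod g, 2 • b = 0 := by
          intro b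
          rw [hk, mul_comm, mul_smul, nsmul_eq_mul g, ZMod.natCast_self, zero_mul, smul_zero]
        rw [mul_one]
        exact Prod.ext (this a.1) (this a.2)
      exact hg _ (Nat.gcd_dvd_left 2 _)
  · rcases Nat.even_or_odd (Fintype.card F) with hF | hF
    · left
      exact (noFour_gcd_odd (odd_pow_sub_one hF (Nat.one_le_pow _ _ (by omega)) (by omega))
        (S2096.result rfl l (by obtain ⟨k, hk⟩ := ho; omega) ho)).congr e
    · exact Or.inr ⟨F, _, _, l, by obtain ⟨k, hk⟩ := ho; omega, ho, hF, ⟨e⟩⟩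

theorem noFour_ominus (h : IsPOmegaMinus T) : NoFour.{u} T ∨
    ∃ (F : Type) (_ : Field F) (_ : Fintype F) (l : ℕ) (a b : F), 5 ≤ l ∧ Odd l ∧ Odd (Fintype.card F) ∧
      (∀ z₁ z₂ : F, z₁ ^ 2 + a * z₁ * z₂ + b * z₂ ^ 2 = 0 → z₁ = 0 ∧ z₂ = 0) ∧
      Nonempty (T ≃* POmega F (quadFormMinus (l - 1) F a b)) := by
  obtain ⟨F, _, _, l, a, b, hl, hab, ⟨e⟩⟩ := h
  have h1 : 1 < Fintype.card F := Fintype.one_lt_card
  have hS := S2099.result rfl l hl a b hab
  rcases Nat.even_or_odd (Fintype.card F) with hF | hF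
  · left
    exact (noFour_gcd_odd (Even.add_one (hF.pow_of_ne_zero (by omega))) hS).congr e
  rcases Nat.even_or_odd l with he | ho
  · left
    refine (noFour_of_cyc hS (m := 1) (by decide) ?_).congr e
    have h4 : (Fintype.card F ^ l + 1) % 4 = 2 := by
      obtain ⟨k, rfl⟩ := he
      have h5 : Fintype.card F % 4 = 1 ∨ Fintype.card F % 4 = 3 := by
        obtain ⟨j, hj⟩ := hF; omega
      rw [← two_mul, pow_mul, Nat.add_mod, Nat.pow_mod]
      have h6 : Fintype.card F ^ 2 % 4 = 1 := by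
        rcases h5 with h5 | h5 <;> rw [Nat.pow_mod, h5]
      rw [h6]
      simp
    have h7 : Nat.gcd 4 (Fintype.card F ^ l + 1) ∣ 4 := Nat.gcd_dvd_left _ _
    have h8 : Nat.gcd 4 (Fintype.card F ^ l + 1) ∣ Fintype.card F ^ l + 1 := Nat.gcd_dvd_right _ _
    have h9 : Nat.gcd 4 (Fintype.card F ^ l + 1) ∣ (Fintype.card F ^ l + 1) % 4 :=
      (Nat.dvd_mod_iff h7).2 h8
    rw [h4] at h9
    exact h9
  · exact Or.inr ⟨F, _, _, l, a, b, by obtain ⟨k, hk⟩ := ho; omega, ho, hF, hab, ⟨e⟩⟩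

end Cfsg.Agent.H917
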